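import Cfsg.Agent.H770.PPow
set_option linter.all false

/-!
# Residual limits of fusion systems: uniqueness (helper770)
-/

set_option autoImplicit false

namespace Cfsg.Agent.H770

open Cfsg Cfsg.FusionSystem Cfsg.Agent.H802

universe u

variable {Ω : Type u} [Group Ω] {S T U V : Subgroup Ω}

/-- Two fusion systems (over possibly different subgroups) with the same maps. -/
def HomEq (E : FusionSystem T) (F : FusionSystem S) : Prop := ∀ P : Subgroup Ω, E.Hom P = F.Hom P

theorem HomEq.refl (F : FusionSystem S) : HomEq F F := fun _ => rfl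

theorem HomEq.symm {E : FusionSystem T} {F : FusionSystem S} (h : HomEq E F) : HomEq F E :=
  fun P => (h P).symm

theorem HomEq.trans {E : FusionSystem T} {F : FusionSystem S} {D : FusionSystem U}
    (h : HomEq E F) (h' : HomEq F D) : HomEq E D := fun P => (h P).trans (h' P)

theorem HomEq.eq {E : FusionSystem T} {F : FusionSystem S} (h : HomEq E F) : T = S :=
  eq_of_hom_eq h

/-- Transport of any property along `HomEq`. -/
theorem HomEq.rec_on {E : FusionSystem T} {F : FusionSystem S} (h : HomEq E F)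
    (M : ∀ {S : Subgroup Ω}, FusionSystem S → Prop) (hE : M E) : M F := by
  obtain rfl := h.eq
  obtain rfl := fus_ext h
  exact hE

theorem hyp_le [Finite S] (F : FusionSystem S) (p : ℕ) : F.hyperfocalSubgroup p ≤ S :=
  (ppow_refl (p := p) F).2.1

/-- Saturated subsystems of `p`-power index over equal groups have the same maps. -/
theorem ppow_homEq [Finite S] {p : ℕ} [Fact p.Prime] (hS : IsPGroup p S)
    {F : FusionSystem S} {E₁ : FusionSystem T} {E₂ : FusionSystem U} (hTU : T = U)
    (h₁ : E₁.IsSaturated p)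
    (h₂ : E₂.IsSaturated p) (hi₁ : E₁.HasPPowerIndexIn F p) (hi₂ : E₂.HasPPowerIndexIn F p) :
    HomEq E₁ E₂ := by
  subst hTU
  rw [ppow_unique hS h₁ h₂ hi₁ hi₂]
  exact HomEq.refl _

theorem pprime_residual_unique {p : ℕ} {F E₁ E₂ : FusionSystem S}
    (h₁ : F.IsPPrimeResidual p E₁) (h₂ : F.IsPPrimeResidual p E₂) : E₁ = E₂ :=
  fus_ext_le (h₁.2.2 E₂ h₂.1 h₂.2.1) (h₂.2.2 E₁ h₁.1 h₁.2.1)

/-- The `p'`-residuals of systems with the same maps have the same maps. -/
theorem pprime_homEq {p : ℕ} {F E : FusionSystem S} {F' E' : FusionSystem T} (hF : HomEq F F')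
    (h : F.IsPPrimeResidual p E) (h' : F'.IsPPrimeResidual p E') : HomEq E E' := by
  obtain rfl := hF.eq
  obtain rfl := fus_ext hF
  rw [pprime_residual_unique h h']
  exact HomEq.refl _

theorem limit_congr {p : ℕ} {L : FusionSystem U} {F : FusionSystem S} {F' : FusionSystem T}
    (h : HomEq F F') (hL : L.IsResidualLimitOf F p) : L.IsResidualLimitOf F' p :=
  h.rec_on (fun G => L.IsResidualLimitOf G p) hL

/-- Case analysis for residual limits. -/
theorem limit_cases {p : ℕ} {L : FusionSystem U} {F : FusionSystem S}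
    (h : L.IsResidualLimitOf F p) :
    (HomEq L F ∧ F.hyperfocalSubgroup p = S ∧ F.IsPPrimeResidual p F) ∨
      ∃ D D' : FusionSystem (F.hyperfocalSubgroup p), F.IsPResidual p D ∧
        D.IsPPrimeResidual p D' ∧ L.IsResidualLimitOf D' p := by
  cases h with
  | stable _ _ h1 h2 => exact Or.inl ⟨HomEq.refl _, h1, h2⟩
  | step _ _ D D' h1 h2 h3 => exact Or.inr ⟨D, D', h1, h2, h3⟩

/-- The residual limit of a stable system is the system. -/
theorem limit_of_stable {p : ℕ} {L : FusionSystem U} {F : FusionSystem S}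
    (h : L.IsResidualLimitOf F p) (hp : Fact p.Prime) (hfin : Finite S) (hS : IsPGroup p S)
    (h1 : F.hyperfocalSubgroup p = S) (h2 : F.IsPPrimeResidual p F) : HomEq L F := by
  induction h with
  | stable F p _ _ => exact HomEq.refl _
  | step F p D D' hD hD' hL ih =>
    have hfin' : Finite (F.hyperfocalSubgroup p) := finite_of_le (hyp_le F p)
    have e1 : HomEq D F := ppow_homEq hS h1 hD.1 h2.1 hD.2 (ppow_refl F)
    have e2 : HomEq D' F := pprime_homEq e1 hD' h2
    have h3 : D'.hyperfocalSubgroup p = F.hyperfocalSubgroup p ∧ D'.IsPPrimeResidual p D' := by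
      have := e2.symm.rec_on (fun {R} G => G.hyperfocalSubgroup p = R ∧ G.IsPPrimeResidual p G)
        ⟨h1, h2⟩
      exact this
    exact (ih hp hfin' (hS.to_le (hyp_le F p)) h3.1 h3.2).trans e2

/-- **Uniqueness of the residual limit.** -/
theorem limit_unique {p : ℕ} {L₁ : FusionSystem U} {L₂ : FusionSystem V}
    {F : FusionSystem S} (h₁ : L₁.IsResidualLimitOf F p) (h₂ : L₂.IsResidualLimitOf F p)
    (hp : Fact p.Prime) (hfin : Finite S) (hS : IsPGroup p S) : HomEq L₁ L₂ := by
  induction h₁ with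
  | stable F p h1 h2 => exact (limit_of_stable h₂ hp hfin hS h1 h2).symm
  | step F p D D' hD hD' hL ih =>
    have hfin' : Finite (F.hyperfocalSubgroup p) := finite_of_le (hyp_le F p)
    have hS' : IsPGroup p (F.hyperfocalSubgroup p) := hS.to_le (hyp_le F p)
    rcases limit_cases h₂ with ⟨h3, h4, h5⟩ | ⟨D₂, D₂', hD₂, hD₂', hL₂⟩
    · exact (limit_of_stable (FusionSystem.IsResidualLimitOf.step F p D D' hD hD' hL)
        hp hfin hS h4 h5).trans h3.symm
    · have e1 : D = D₂ := ppow_unique hS hD.1 hD₂.1 hD.2 hD₂.2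
      subst e1
      have e2 : D' = D₂' := pprime_residual_unique hD' hD₂'
      subst e2
      exact ih hL₂ hp hfin' hS'

/-- **Residual limits and subsystems of `p`-power index.** -/
theorem limit_ppow {p : ℕ} [hp : Fact p.Prime] [hfin : Finite S] (hS : IsPGroup p S)
    {F : FusionSystem S} {E : FusionSystem T} (hF : F.IsSaturated p) (hEs : E.IsSaturated p)
    (hE : E.HasPPowerIndexIn F p) {L₁ : FusionSystem U} {L₂ : FusionSystem V}
    (h₁ : L₁.IsResidualLimitOf F p) (h₂ : L₂.IsResidualLimitOf E p) : HomEq L₁ L₂ := by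
  have hTS := le_of_sub hE.1
  have hfinT : Finite T := finite_of_le hTS
  have hT : IsPGroup p T := hS.to_le hTS
  have hhyp := hyp_eq hS hE
  have hfin' : Finite (F.hyperfocalSubgroup p) := finite_of_le (hyp_le F p)
  have hS' : IsPGroup p (F.hyperfocalSubgroup p) := hS.to_le (hyp_le F p)
  rcases limit_cases h₁ with ⟨h3, h4, h5⟩ | ⟨D, D', hD, hD', hL⟩
  · have hTS' : T = S := le_antisymm hTS (h4 ▸ hE.2.1)
    have e : HomEq E F := ppow_homEq hS hTS' hEs hF hE (ppow_refl F)
    exact limit_unique h₁ (limit_congr e h₂) hp hfin hS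
  · rcases limit_cases h₂ with ⟨h6, h7, h8⟩ | ⟨D₂, D₂', hD₂, hD₂', hL₂⟩
    · have e : HomEq D E := ppow_homEq hS (hhyp.symm.trans h7) hD.1 hEs hD.2 hE
      have e2 : HomEq D' E := pprime_homEq e hD' h8
      exact limit_unique (limit_congr e2 hL) h₂ hp hfinT hT
    · have e : HomEq D₂ D := ppow_homEq hS hhyp hD₂.1 hD.1 (ppow_trans hS hE hD₂.2) hD.2
      have e2 : HomEq D₂' D' := pprime_homEq e hD₂' hD'
      exact limit_unique hL (limit_congr e2 hL₂) hp hfin' hS'

end Cfsg.Agent.H770
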