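import Cfsg.Agent.H770.CharSys
import Cfsg.Agent.H770.Limit
import Cfsg.Agent.H752.Ext
import Cfsg.Agent.H752.PPow
import Cfsg.Agent.H759.ResInv
import Cfsg.Agent.S5113
import Cfsg.Agent.S5140
set_option linter.all false

-- part: H770/Diamond
section
/-!
# `p`-power index and index prime to `p` (helper770)
-/

set_option autoImplicit false
set_option linter.unusedVariables false

namespace Cfsg.Agent.H770

open Cfsg Cfsg.FusionSystem Cfsg.Agent.H752

variable {Ω : Type*} [Group Ω] {S T U : Subgroup Ω} {p : ℕ}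

theorem exists_inv_T [Finite T] {C : FusionSystem U} (hT : C.StronglyClosed T) {a : Ω → Ω}
    (ha : Mp C T a) : ∃ b, Mp C T b ∧ (∀ x ∈ T, b (a x) = x) ∧ (∀ x ∈ T, b x ∈ T ∧ a (b x) = x) := by
  obtain ⟨b, hb, h1, h2⟩ := ha.exists_symm le_rfl (T := T) (Mp.im_of_maps ha
    fun x hx => mp_mem_of_stronglyClosed hT ha hx hx)
  exact ⟨b, hb, h1, h2⟩

/-- Invariance of a `p`-power index subsystem of a strongly invariant subsystem. -/
theorem invC_ppow [Finite T] [Fact p.Prime] {C : FusionSystem U} {D : FusionSystem S}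
    {E : FusionSystem T} (hTp : IsPGroup p T) (hTC : C.StronglyClosed T) (hE : E.IsSaturated p)
    (hEi : E.HasPPowerIndexIn D p) (hSI : StrongInvC D C) : InvC E C := by
  have hTS : T ≤ S := le_of_sub hEi.1
  have key := mp_generation E hTp hE (fun P f => ∀ (a h : Ω → Ω) (R : Subgroup Ω), Mp C T a →
      (∀ y ∈ R, ∃ x ∈ P, a x = y ∧ h y = a (f x)) → Mp E R h) ?_ ?_ ?_ ?_ ?_ ?_
  · intro P R f a h hf ha hR
    exact key P f hf a h R ha hR
  · intro P f g hf h he a k R ha hR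
    refine h a k R ha fun y hy => ?_
    obtain ⟨x, hx, h1, h2⟩ := hR y hy
    exact ⟨x, hx, h1, by rw [h2, he x hx]⟩
  · intro P R f _ h hR a k R' ha hR'
    refine h a k R' ha fun y hy => ?_
    obtain ⟨x, hx, h1, h2⟩ := hR' y hy
    exact ⟨x, hR hx, h1, h2⟩
  · intro P Q f g hf hg h1 h2 hPQ a h R ha hR
    obtain ⟨b, hb, hb1, hb2⟩ := exists_inv_T hTC ha
    obtain ⟨Q', hQ', hQ'S, -⟩ := Mp.exists_im ha hg.le
    have h3 : Mp E R (fun y => a (f (b y))) := h1 a _ R ha fun y hy => by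
      obtain ⟨x, hx, rfl, -⟩ := hR y hy
      exact ⟨x, hx, rfl, by rw [hb1 x (hf.le hx)]⟩
    have h4 : Mp E Q' (fun y => a (g (b y))) := h2 a _ Q' ha fun y hy => by
      obtain ⟨x, hx, rfl⟩ := (hQ' y).1 hy
      exact ⟨x, hx, rfl, by rw [hb1 x (hg.le hx)]⟩
    refine (h3.comp h4 ?_).congr ?_
    · intro y hy
      obtain ⟨x, hx, rfl, -⟩ := hR y hy
      rw [hb1 x (hf.le hx)]
      exact hQ'.apply (hPQ x hx)
    · intro y hy
      obtain ⟨x, hx, rfl, h5⟩ := hR y hy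
      show h (a x) = a (g (b (a (f (b (a x))))))
      rw [h5, hb1 x (hf.le hx), hb1 _ (hf.mem hx)]
  · intro P R f g hf h1 hg hinv a h R' ha hR'
    obtain ⟨b, hb, hb1, hb2⟩ := exists_inv_T hTC ha
    obtain ⟨P', hP', hP'S, -⟩ := Mp.exists_im ha hf.le
    have h3 : Mp E P' (fun y => a (f (b y))) := h1 a _ P' ha fun y hy => by
      obtain ⟨x, hx, rfl⟩ := (hP' y).1 hy
      exact ⟨x, hx, rfl, by rw [hb1 x (hf.le hx)]⟩
    refine h3.symm fun y hy => ?_
    obtain ⟨z, hz, rfl, h5⟩ := hR' y hy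
    obtain ⟨x, hx, rfl, h6⟩ := hinv z hz
    exact ⟨a x, hP'.apply hx, by rw [hb1 x (hf.le hx)], by rw [h5, h6]⟩
  · intro P hP s hs a h R ha hR
    have hRT : R ≤ T := by
      intro y hy
      obtain ⟨x, hx, rfl, -⟩ := hR y hy
      exact mp_mem_of_stronglyClosed hTC ha (hP hx) (hP hx)
    refine (mp_conj E hRT (mp_mem_of_stronglyClosed hTC ha hs hs)).congr fun y hy => ?_
    obtain ⟨x, hx, rfl, h2⟩ := hR y hy
    rw [h2, ha.mul (T.mul_mem hs (hP hx)) (T.inv_mem hs), ha.mul hs (hP hx), ha.inv hs]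
  · intro Q hQa hQr α hα hc f hfα a h R ha hR
    have hQT : Q ≤ T := hQa.1
    have hfQ : Finite Q := H802.finite_of_le hQT
    have hfe : ∀ x ∈ Q, f x = ac α x := fun x hx => by rw [hfα x hx, ac_apply α hx]
    obtain ⟨b, hb, hb1, hb2⟩ := exists_inv_T hTC ha
    obtain ⟨R₁, hR₁, hR₁S, -⟩ := Mp.exists_im ha hQT
    have hR₁T : R₁ ≤ T := by
      intro y hy
      obtain ⟨x, hx, rfl⟩ := (hR₁ y).1 hy
      exact mp_mem_of_stronglyClosed hTC ha (hQT hx) (hQT hx)
    have hfR₁ : Finite R₁ := H802.finite_of_le hR₁T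
    have hbR : ∀ y ∈ R₁, b y ∈ Q ∧ a (b y) = y := by
      intro y hy
      obtain ⟨x, hx, rfl⟩ := (hR₁ y).1 hy
      rw [hb1 x (hQT hx)]
      exact ⟨hx, rfl⟩
    -- the transported automorphism lies in `D`
    have h1 : Mp D R₁ (fun y => a (ac α (b y))) := by
      refine hSI Q Q R₁ (ac α) a _ le_rfl (hQT.trans hTS) (mp_mono hEi.1 (mp_ac hQT hα))
        (fun x hx => ac_mem _ hx) (ha.res hQT) fun y hy => ⟨b y, (hbR y hy).1, (hbR y hy).2, rfl⟩
    obtain ⟨β, hβ, h2⟩ := exists_ac h1 fun y hy => hR₁.apply (ac_mem _ (hbR y hy).1)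
    -- powers
    have hpow : ∀ n : ℕ, ∀ y ∈ R₁, ac (β ^ n) y = a (ac (α ^ n) (b y)) := by
      intro n
      induction n with
      | zero =>
        intro y hy
        rw [pow_zero, pow_zero, ac_one hy, ac_one (hbR y hy).1, (hbR y hy).2]
      | succ n ih =>
        intro y hy
        rw [pow_succ, pow_succ, ac_mul _ _ hy, ac_mul _ _ (hbR y hy).1, ← h2 y hy,
          ih _ (hR₁.apply (ac_mem _ (hbR y hy).1)), hb1 _ (hQT (ac_mem _ (hbR y hy).1))]
    have hβc : (orderOf β).Coprime p := by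
      have h3 : orderOf β ∣ orderOf α := by
        rw [orderOf_dvd_iff_pow_eq_one]
        ext y
        rw [← ac_apply _ y.2, hpow _ y y.2, pow_orderOf_eq_one, ac_one (hbR y y.2).1,
          (hbR y y.2).2]
        rfl
      exact Nat.Coprime.coprime_dvd_left h3 hc
    have h4 := mp_ac hR₁T (mem_autGroup_of_coprime hEi hR₁T hβ hβc)
    have hRR₁ : R ≤ R₁ := by
      intro y hy
      obtain ⟨x, hx, rfl, -⟩ := hR y hy
      exact hR₁.apply hx
    refine (h4.res hRR₁).congr fun y hy => ?_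
    obtain ⟨x, hx, rfl, h5⟩ := hR y hy
    rw [h5, ← h2 _ (hRR₁ hy), hb1 x (hQT hx), hfe x hx]

/-- Transitivity of the Frattini condition. -/
theorem fratC_trans [Finite T] {C : FusionSystem U} {D : FusionSystem S} {E : FusionSystem T}
    (hTS : T ≤ S) (hTC : C.StronglyClosed T) (hDC : D.IsSubsystemOf C) (hED : E.IsSubsystemOf D)
    {P : Subgroup Ω} {f : Ω → Ω}
    (hPT : P ≤ T) (h1 : FratC D C P f)
    (h2 : ∀ (P : Subgroup Ω) (f : Ω → Ω), P ≤ T → Mp D P f → FratC E D P f) : FratC E C P f := by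
  obtain ⟨a, ha, f₀, hf₀, h3⟩ := h1
  obtain ⟨b, hb, f₁, hf₁, h4⟩ := h2 P f₀ hPT hf₀
  refine ⟨fun x => a (b x), (mp_mono hDC hb).comp ha fun x hx => ?_, f₁, hf₁, fun x hx => ?_⟩
  · exact hTS (mp_mem_of_stronglyClosed hTC (mp_mono hDC hb) hx hx)
  · rw [h3 x hx, h4 x hx]

/-- Characterisation of index prime to `p`. -/
theorem pidx_iff [Fact p.Prime] {E F : FusionSystem S} : E.HasPrimeToPIndexIn F p ↔
    E.IsSubsystemOf F ∧ ∀ P : Subgroup Ω, P ≤ S → ∀ α ∈ F.autGroup P, (∃ n : ℕ, α ^ p ^ n = 1) →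
      α ∈ E.autGroup P := by
  constructor
  · rintro ⟨h1, h2⟩
    refine ⟨h1, fun P hP α hα hn => h2 P hP ⟨⟨α, hα⟩, Subgroup.subset_closure ?_, rfl⟩⟩
    obtain ⟨n, hn⟩ := hn
    have h3 : (⟨α, hα⟩ : F.autGroup P) ^ p ^ n = 1 := Subtype.ext hn
    obtain ⟨k, -, hk⟩ := (Nat.dvd_prime_pow Fact.out).1 (orderOf_dvd_of_pow_eq_one h3)
    exact ⟨k, hk⟩
  · rintro ⟨h1, h2⟩
    refine ⟨h1, fun P hP => ?_⟩
    rw [Subgroup.map_le_iff_le_comap, Subgroup.closure_le]
    rintro ⟨α, hα⟩ ⟨k, hk⟩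
    refine h2 P hP α hα ⟨k, ?_⟩
    have h3 : (⟨α, hα⟩ : F.autGroup P) ^ p ^ k = 1 := by rw [← hk]; exact pow_orderOf_eq_one _
    exact congrArg Subtype.val h3

theorem pidx_trans [Fact p.Prime] {C D E : FusionSystem S} (h1 : D.HasPrimeToPIndexIn C p)
    (h2 : E.HasPrimeToPIndexIn D p) : E.HasPrimeToPIndexIn C p := by
  rw [pidx_iff] at *
  exact ⟨fun P => (h2.1 P).trans (h1.1 P), fun P hP α hα hn => h2.2 P hP α (h1.2 P hP α hα hn) hn⟩

theorem pidx_of_le [Fact p.Prime] {C D E : FusionSystem S} (h1 : D.IsSubsystemOf C)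
    (h2 : E.IsSubsystemOf D) (h3 : E.HasPrimeToPIndexIn C p) : E.HasPrimeToPIndexIn D p := by
  rw [pidx_iff] at *
  exact ⟨h2, fun P hP α hα hn => h3.2 P hP α (autGroup_mono' h1 P hα) hn⟩

/-- The `p'`-residual of a subsystem of index prime to `p`. -/
theorem pprime_trans [Fact p.Prime] {C D G : FusionSystem S} (hDs : D.IsSaturated p)
    (hD : D.HasPrimeToPIndexIn C p) (hG : C.IsPPrimeResidual p G) : D.IsPPrimeResidual p G := by
  obtain ⟨h1, h2, h3⟩ := hG
  exact ⟨h1, pidx_of_le hD.1 (h3 D hDs hD) h2, fun D' hD's hD' => h3 D' hD's (pidx_trans hD hD')⟩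

/-- **Diamond lemma.** -/
theorem diamond [Finite S] [Fact p.Prime] (hS : IsPGroup p S) {C D : FusionSystem S}
    (hC : C.IsSaturated p) (hD : D.IsSaturated p) (hDC : D.IsInvariantIn C)
    (hT : C.hyperfocalSubgroup p ≤ T) (hTS : T ≤ S) (hTn : ∀ s ∈ S, ∀ t ∈ T, s * t * s⁻¹ ∈ T)
    {CT DT : FusionSystem T} (hCTs : CT.IsSaturated p) (hCT : CT.HasPPowerIndexIn C p)
    (hDTs : DT.IsSaturated p) (hDT : DT.HasPPowerIndexIn D p) : DT.HasPrimeToPIndexIn CT p := by
  have hfT : Finite T := H802.finite_of_le hTS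
  have hTp : IsPGroup p T := hS.to_le hTS
  obtain ⟨hDCs, -, hDI, hDFr⟩ := isInvariantIn_iff.1 hDC
  have hTC : C.StronglyClosed T := stronglyClosed_of_hyperfocal_le hS hC hTS hTn hT
  have hTD : D.StronglyClosed T := stronglyClosed_of_hyperfocal_le hS hD hTS hTn
    ((hyp_mono hDCs p).trans hT)
  have hSI : StrongInvC D C := strongInvC_of_invC hDI hDFr
  have hI : InvC DT C := invC_ppow hTp hTC hDTs hDT hSI
  have hID : InvC DT D := invC_ppow hTp hTD hDTs hDT (strongInvC_of_invC invC_self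
    fun P f _ hf => ⟨fun x => x, mp_id D le_rfl, f, hf, fun _ _ => rfl⟩)
  have hprime : ∀ P : Subgroup Ω, P ≤ T → ∀ α ∈ D.autGroup P, Nat.Coprime (orderOf α) p →
      α ∈ DT.autGroup P := fun P hP α hα hc => mem_autGroup_of_coprime hDT hP hα hc
  have hFrD := fratC_of_prime hS hD hTD hID hprime
  have hSI' : StrongInvC DT C := strongInvC_of_invC hI fun P f hPT hf =>
    fratC_trans hTS hTC hDCs hDT.1 hPT (hDFr P f hf.le hf) fun P f hPT hf =>
      (hFrD P f hf).res (le_inf le_rfl hPT)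
  rw [pidx_iff]
  refine ⟨fun P => ?_, fun P hPT α hα hn => ?_⟩
  · exact le_of_coprime_aut hTp hDTs (fun P hP α hα ho => mem_autGroup_of_coprime hCT hP
      (autGroup_mono' hDCs P (autGroup_mono' hDT.1 P hα)) ho) P
  · obtain ⟨n, hn⟩ := hn
    obtain ⟨φ, hφ, g, hg, hge⟩ := H802.exists_conj_of_orderOf hCTs hPT hα hn
    have hφm := mp_ex hφ
    obtain ⟨P₁, hP₁, hP₁T, -⟩ := Mp.exists_im hφm le_rfl
    obtain ⟨i, hi, hi1, hi2⟩ := hφm.exists_symm le_rfl hP₁
    have hval : ∀ x ∈ P, g * ex φ x * g⁻¹ = ex φ (ac α x) := fun x hx => by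
      rw [ex_apply _ hx, ex_apply _ (ac_mem α hx), ← hge ⟨x, hx⟩]
      congr 1
      exact Subtype.ext (ac_apply α hx).symm
    apply mem_of_mp_ac
    refine hSI' P₁ P₁ P (fun x => g * x * g⁻¹) i (ac α) le_rfl hP₁T (mp_conj DT hP₁T hg) ?_
      (mp_mono hCT.1 hi) ?_
    · intro y hy
      obtain ⟨x, hx, rfl⟩ := (hP₁ y).1 hy
      show g * ex φ x * g⁻¹ ∈ P₁
      rw [hval x hx]
      exact hP₁.apply (ac_mem _ hx)
    · intro x hx
      refine ⟨ex φ x, hP₁.apply hx, hi1 x hx, ?_⟩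
      show ac α x = i (g * ex φ x * g⁻¹)
      rw [hval x hx, hi1 _ (ac_mem _ hx)]

end Cfsg.Agent.H770
end

-- part: H770/Limit2
section
/-!
# Residual limits: existence, and invariance under passing to a subsystem of index prime to `p` (helper770)
-/

set_option autoImplicit false
set_option linter.unusedVariables false

namespace Cfsg.Agent.H770

open Cfsg Cfsg.FusionSystem Cfsg.Agent.H752

variable {Ω : Type*} [Group Ω] {p : ℕ}

/-- Every element of `S` normalizes the hyperfocal subgroup. -/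
theorem hyp_normal {S : Subgroup Ω} (F : FusionSystem S) {s t : Ω} (hs : s ∈ S)
    (ht : t ∈ F.hyperfocalSubgroup p) : s * t * s⁻¹ ∈ F.hyperfocalSubgroup p := by
  have h1 : F.hyperfocalSubgroup p ≤ (F.hyperfocalSubgroup p).comap (MulAut.conj s).toMonoidHom := by
    rw [hyp_le_iff]
    intro P hP α hα ho x
    show s * ((x : Ω)⁻¹ * ((α x : P) : Ω)) * s⁻¹ ∈ F.hyperfocalSubgroup p
    have hcm := mp_conj F hP hs
    obtain ⟨P₁, hP₁, hP₁S, -⟩ := Mp.exists_im hcm le_rfl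
    obtain ⟨i, hi, hi1, hi2⟩ := hcm.exists_symm le_rfl hP₁
    have hm : Mp F P₁ (fun y => s * ac α (i y) * s⁻¹) :=
      (hi.comp (mp_ac hP hα) fun y hy => (hi2 y hy).1).comp hcm fun y hy => ac_mem _ (hi2 y hy).1
    have hmm : ∀ y ∈ P₁, s * ac α (i y) * s⁻¹ ∈ P₁ := fun y hy => hP₁.apply (ac_mem _ (hi2 y hy).1)
    -- an explicit automorphism of `P₁`
    obtain ⟨e, he⟩ : ∃ e : P ≃* P₁, ∀ x : P, ((e x : P₁) : Ω) = s * x * s⁻¹ := by
      refine ⟨⟨⟨fun x => ⟨s * x * s⁻¹, hP₁.apply x.2⟩, fun y => ⟨i y, (hi2 y y.2).1⟩, ?_, ?_⟩, ?_⟩,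
        fun _ => rfl⟩
      · intro x
        exact Subtype.ext (hi1 x x.2)
      · intro y
        exact Subtype.ext (hi2 y y.2).2
      · intro x y
        apply Subtype.ext
        show s * (x * y : P) * s⁻¹ = (s * x * s⁻¹) * (s * y * s⁻¹)
        push_cast
        group
    have hβ : MulAut.congr e α ∈ F.autGroup P₁ := by
      refine hm.mem_autGroup fun y hy => ?_
      show s * ac α (i y) * s⁻¹ = ((e (α (e.symm ⟨y, hy⟩)) : P₁) : Ω)
      rw [he]
      have h2 : e.symm ⟨y, hy⟩ = ⟨i y, (hi2 y hy).1⟩ := by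
        rw [MulEquiv.symm_apply_eq]
        apply Subtype.ext
        rw [he]
        exact (hi2 y hy).2.symm
      rw [h2, ac_apply α (hi2 y hy).1]
    have hβo : (orderOf (MulAut.congr e α)).Coprime p := by
      rwa [MulEquiv.orderOf_eq]
    have h3 := hyp_le_iff.1 (le_refl (F.hyperfocalSubgroup p)) P₁ hP₁S _ hβ hβo (e x)
    have h4 : ((MulAut.congr e α (e x) : P₁) : Ω) = s * (α x : P) * s⁻¹ := by
      show ((e (α (e.symm (e x))) : P₁) : Ω) = _
      rw [MulEquiv.symm_apply_apply, he]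
    rw [h4, he] at h3
    have h5 : (s * (x : Ω) * s⁻¹)⁻¹ * (s * ((α x : P) : Ω) * s⁻¹) =
      s * ((x : Ω)⁻¹ * ((α x : P) : Ω)) * s⁻¹ := by group
    rwa [h5] at h3
  exact h1 ht

/-- **Existence of the residual limit.** -/
theorem exists_limit [Fact p.Prime] : ∀ (n : ℕ) {S : Subgroup Ω} [Finite S] (hS : IsPGroup p S)
    (hn : Nat.card S ≤ n) (F : FusionSystem S) (hF : F.IsSaturated p),
    ∃ (U : Subgroup Ω) (L : FusionSystem U), L.IsResidualLimitOf F p := by
  intro n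
  induction n with
  | zero =>
    intro S _ hS hn F hF
    exact absurd (Nat.card_pos (α := S)) (by omega)
  | succ n ih =>
    intro S _ hS hn F hF
    -- systems over smaller hyperfocal subgroups
    have hsmall : ∀ F : FusionSystem S, F.IsSaturated p → F.hyperfocalSubgroup p ≠ S →
        ∃ (U : Subgroup Ω) (L : FusionSystem U), L.IsResidualLimitOf F p := by
      intro F hF hne
      have hle := hyp_le F p
      have hfT : Finite (F.hyperfocalSubgroup p) := H802.finite_of_le hle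
      obtain ⟨D, ⟨hDs, hDi⟩, -⟩ := S5113.result p hS F hF _ hle le_rfl
      obtain ⟨D', hD'⟩ := S5140.result p (hS.to_le hle) D hDs
      have hlt : Nat.card (F.hyperfocalSubgroup p) ≤ n := by
        have h1 : Nat.card (F.hyperfocalSubgroup p) < Nat.card S :=
          lt_of_le_of_ne (Subgroup.card_le_of_le hle) fun h =>
            hne (Subgroup.eq_of_le_of_card_ge hle h.ge)
        omega
      obtain ⟨U, L, hL⟩ := ih (hS.to_le hle) hlt D' hD'.1
      exact ⟨U, L, .step F p D D' ⟨hDs, hDi⟩ hD' hL⟩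
    by_cases hne : F.hyperfocalSubgroup p = S
    · obtain ⟨E, hE⟩ := S5140.result p hS F hF
      have hEE : E.IsPPrimeResidual p E := pprime_trans hE.1 hE.2.1 hE
      have hEL : ∃ (U : Subgroup Ω) (L : FusionSystem U), L.IsResidualLimitOf E p := by
        by_cases hE' : E.hyperfocalSubgroup p = S
        · exact ⟨S, E, .stable E p hE' hEE⟩
        · exact hsmall E hE.1 hE'
      obtain ⟨U, L, hL⟩ := hEL
      -- `F` is its own `p`-residual
      have key : ∀ (T : Subgroup Ω) (hT : S = T), ∃ D D' : FusionSystem T, HomEq F D ∧ HomEq E D' := by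
        intro T hT
        subst hT
        exact ⟨F, E, HomEq.refl _, HomEq.refl _⟩
      obtain ⟨D, D', h1, h2⟩ := key _ hne.symm
      have h3 : F.IsPResidual p D := by
        refine ⟨h1.rec_on (fun G => G.IsSaturated p) hF, ?_⟩
        exact h1.rec_on (fun G => G.HasPPowerIndexIn F p) (ppow_refl F)
      have h4 : D.IsPPrimeResidual p D' := by
        have h5 : ∀ {T : Subgroup Ω} (D D' : FusionSystem T), HomEq F D → HomEq E D' →
            D.IsPPrimeResidual p D' := by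
          intro T D D' h1 h2
          obtain rfl := h1.eq
          obtain rfl := fus_ext h1
          obtain rfl := fus_ext h2
          exact hE
        exact h5 D D' h1 h2
      exact ⟨U, L, .step F p D D' h3 h4 (limit_congr h2 hL)⟩
    · exact hsmall F hF hne

theorem exists_limit' [Fact p.Prime] {S : Subgroup Ω} [Finite S] (hS : IsPGroup p S)
    {F : FusionSystem S} (hF : F.IsSaturated p) :
    ∃ (U : Subgroup Ω) (L : FusionSystem U), L.IsResidualLimitOf F p :=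
  exists_limit _ hS le_rfl F hF

/-- The residual limit of the `p'`-residual. -/
theorem limit_pprime_residual [Fact p.Prime] : ∀ (n : ℕ) {S : Subgroup Ω} [Finite S]
    (hS : IsPGroup p S) (hn : Nat.card S ≤ n) (C D : FusionSystem S) (hC : C.IsSaturated p)
    (hD : C.IsPPrimeResidual p D) {U V : Subgroup Ω} (L₁ : FusionSystem U) (L₂ : FusionSystem V)
    (h₁ : L₁.IsResidualLimitOf C p) (h₂ : L₂.IsResidualLimitOf D p), HomEq L₁ L₂ := by
  intro n
  induction n with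
  | zero =>
    intro S _ hS hn F hF
    exact absurd (Nat.card_pos (α := S)) (by omega)
  | succ n ih =>
    intro S _ hS hn C D hC hD U V L₁ L₂ h₁ h₂
    have hle := hyp_le C p
    have hfT : Finite (C.hyperfocalSubgroup p) := H802.finite_of_le hle
    have hTp : IsPGroup p (C.hyperfocalSubgroup p) := hS.to_le hle
    rcases limit_cases h₁ with ⟨h3, h4, h5⟩ | ⟨C₁, C₁', hC₁, hC₁', hL⟩
    · have h6 : D = C := pprime_residual_unique hD h5
      rw [h6] at h₂
      exact limit_unique h₁ h₂ inferInstance inferInstance hS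
    · by_cases hne : C.hyperfocalSubgroup p = S
      · have e1 : HomEq C₁ C := ppow_homEq hS hne hC₁.1 hC hC₁.2 (ppow_refl C)
        have e2 : HomEq C₁' D := pprime_homEq e1 hC₁' hD
        exact limit_unique (limit_congr e2 hL) h₂ inferInstance inferInstance hS
      · have hDle : D.hyperfocalSubgroup p ≤ C.hyperfocalSubgroup p := hyp_mono hD.2.1.1 p
        obtain ⟨DT, ⟨hDTs, hDTi⟩, -⟩ := S5113.result p hS D hD.1 _ hle hDle
        have hdia := diamond hS hC hD.1 (H759.isInvariantIn_of_isPPrimeResidual hS hC hD) le_rfl hle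
          (fun s hs t ht => hyp_normal C hs ht) hC₁.1 hC₁.2 hDTs hDTi
        have hG := pprime_trans hDTs hdia hC₁'
        obtain ⟨W, L₃, hL₃⟩ := exists_limit' hTp hDTs
        have hlt : Nat.card (C.hyperfocalSubgroup p) ≤ n := by
          have h1 : Nat.card (C.hyperfocalSubgroup p) < Nat.card S :=
            lt_of_le_of_ne (Subgroup.card_le_of_le hle) fun h =>
              hne (Subgroup.eq_of_le_of_card_ge hle h.ge)
          omega
        have h7 := ih hTp hlt DT C₁' hDTs hG L₃ L₁ hL₃ hL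
        exact h7.symm.trans (limit_ppow hS hD.1 hDTs hDTi h₂ hL₃).symm

/-- **Residual limits and subsystems of index prime to `p`.** -/
theorem limit_pidx [Fact p.Prime] {S : Subgroup Ω} [Finite S]
    (hS : IsPGroup p S) {C D : FusionSystem S} (hC : C.IsSaturated p) (hD : D.IsSaturated p)
    (hDC : D.HasPrimeToPIndexIn C p) {U V : Subgroup Ω} {L₁ : FusionSystem U} {L₂ : FusionSystem V}
    (h₁ : L₁.IsResidualLimitOf C p) (h₂ : L₂.IsResidualLimitOf D p) : HomEq L₁ L₂ := by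
  obtain ⟨G, hG⟩ := S5140.result p hS C hC
  have hG' := pprime_trans hD hDC hG
  obtain ⟨W, L₃, hL₃⟩ := exists_limit' hS hG.1
  exact (limit_pprime_residual _ hS le_rfl C G hC hG L₁ L₃ h₁ hL₃).trans
    (limit_pprime_residual _ hS le_rfl D G hD hG' L₂ L₃ h₂ hL₃).symm

/-- The residual limit is a subsystem. -/
theorem limit_sub {p : ℕ} {S U : Subgroup Ω} {L : FusionSystem U} {F : FusionSystem S}
    (h : L.IsResidualLimitOf F p) : L.IsSubsystemOf F := by
  induction h with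
  | stable F p _ _ => exact fun _ => le_rfl
  | step F p D D' hD hD' hL ih =>
    exact fun P => (ih P).trans ((hD'.2.1.1 P).trans (hD.2.1 P))

end Cfsg.Agent.H770
end

-- part: H770/Steps
section
/-!
# Descending along a chain of normal subgroups of `Aut_F(T)` (helper770)
-/

set_option autoImplicit false
set_option linter.unusedVariables false

namespace Cfsg.Agent.H770

open Cfsg Cfsg.FusionSystem Cfsg.Agent.H752 Cfsg.Agent.H756

variable {Ω : Type*} [Group Ω] {S T U : Subgroup Ω} {p : ℕ}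

/-! ### Tools -/

theorem normal_self [Finite S] {F : FusionSystem S} (hF : F.IsSaturated p) : F.IsNormalIn F p := by
  rw [isNormalIn_iff le_rfl]
  refine ⟨hF, hF, isInvariantIn_iff.2 ⟨fun _ => le_rfl, ⟨le_rfl, fun R _ φ hφ x =>
    (F.le_of_mem hφ).2 x⟩, invC_self, fun P f _ hf => ⟨fun x => x, mp_id F le_rfl, f, hf,
    fun _ _ => rfl⟩⟩, fun a ha => ?_⟩
  have hle : centralizerIn S S ≤ S := inf_le_left
  refine ⟨a, by rwa [sup_eq_left.2 hle], fun _ _ => rfl, fun c hc => ?_⟩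
  obtain ⟨hc1, hc2⟩ := hc
  have hc1' : c ∈ S := hc1
  have hc2' : c ∈ Subgroup.centralizer (S : Set Ω) := hc2
  exact ⟨S.mul_mem (S.inv_mem hc1') (ha.mem hc1'),
    Subgroup.mul_mem _ (Subgroup.inv_mem _ hc2') (Mp.mem_centralizer ha le_rfl
      (Mp.im_of_maps ha fun x hx => ha.mem hx) hc1' hc2')⟩

/-- Normality from invariance when `C_S(U) ≤ U`. -/
theorem isNormalIn_of_centralizer [Finite S] {F : FusionSystem S} {G : FusionSystem U}
    (hF : F.IsSaturated p) (hG : G.IsSaturated p) (hI : G.IsInvariantIn F)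
    (hC : centralizerIn S U ≤ U) : G.IsNormalIn F p := by
  have hUS : U ≤ S := hI.2.1.1
  rw [isNormalIn_iff hUS]
  refine ⟨hG, hF, hI, fun a ha => ?_⟩
  have haF := mp_mono hI.1 ha
  have hfU : Finite U := H802.finite_of_le hUS
  refine ⟨a, by rwa [sup_eq_left.2 hC], fun _ _ => rfl, fun c hc => ?_⟩
  have hcU := hC hc
  obtain ⟨hc1, hc2⟩ := hc
  have hc2' : c ∈ Subgroup.centralizer (U : Set Ω) := hc2
  exact ⟨U.mul_mem (U.inv_mem hcU) (ha.mem hcU),
    Subgroup.mul_mem _ (Subgroup.inv_mem _ hc2') (Mp.mem_centralizer haF le_rfl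
      (Mp.im_of_maps haF fun x hx => ha.mem hx) hcU hc2')⟩

/-- Restriction of normality to a smaller overgroup system. -/
theorem isNormalIn_restrict [Finite S] [Fact p.Prime] {G : FusionSystem S} {G' : FusionSystem U}
    {E : FusionSystem T} (hU : IsPGroup p U)
    (hEG : E.IsNormalIn G p) (hG'G : G'.IsSubsystemOf G) (hG' : G'.IsSaturated p)
    (hEG' : E.IsSubsystemOf G') (hext : ∀ a, Mp E T a → ExtC G' T a) : E.IsNormalIn G' p := by
  have hUS : U ≤ S := le_of_sub hG'G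
  have hTU : T ≤ U := le_of_sub hEG'
  have hfU : Finite U := H802.finite_of_le hUS
  have hfT : Finite T := H802.finite_of_le hTU
  rw [isNormalIn_iff hTU]
  obtain ⟨⟨h1, h2, h3⟩, -⟩ := hEG
  refine ⟨h1, hG', ?_, hext⟩
  obtain ⟨h4, h5, h6, h7⟩ := isInvariantIn_iff.1 h3
  have hSI := strongInvC_of_invC h6 h7
  have hT : G'.StronglyClosed T :=
    ⟨hTU, fun R hR φ hφ x => h5.2 R hR φ (hG'G R hφ) x⟩
  rw [isInvariantIn_iff_strongInvC hU hG' hEG' hT]
  intro P Q R f g h hPQ hQT hf hfQ hg hR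
  exact hSI P Q R f g h hPQ hQT hf hfQ (mp_mono hG'G hg) hR

theorem NK_mono {K K' : Subgroup (MulAut T)} (h : K' ≤ K) : NK S T K' ≤ NK S T K := by
  rintro s ⟨h1, h2, κ, hκ, h3⟩
  exact ⟨h1, h2, κ, h hκ, h3⟩

theorem centralizerIn_le_NK {K : Subgroup (MulAut T)} : centralizerIn S T ≤ NK S T K := by
  rintro s ⟨h1, h2⟩
  refine ⟨h1, Subgroup.centralizer_le_normalizer _ h2, 1, one_mem _, fun x hx => ?_⟩
  rw [ac_one hx]
  have h3 : x * s = s * x := Subgroup.mem_centralizer_iff.1 h2 x hx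
  rw [← h3]; group

theorem le_NK {E : FusionSystem T} {K : Subgroup (MulAut T)} (hTS : T ≤ S)
    (h : E.autGroup T ≤ K) : T ≤ NK S T K := by
  intro t ht
  refine ⟨hTS ht, Subgroup.le_normalizer ht, _, h (conjAut_mem_autGroup le_rfl ht
    (Subgroup.le_normalizer ht)), fun x hx => ?_⟩
  rw [ac_apply _ hx]
  rfl

/-- `NK S T K` is strongly closed. -/
theorem nk_stronglyClosed [Finite S] [Fact p.Prime] (hS : IsPGroup p S) {F : FusionSystem S}
    (hF : F.IsSaturated p) (hT : F.StronglyClosed T) {K : Subgroup (MulAut T)}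
    (hKn : ∀ a ∈ F.autGroup T, ∀ k ∈ K, a * k * a⁻¹ ∈ K) (hTK : T ≤ NK S T K) :
    F.StronglyClosed (NK S T K) := by
  have hfT : Finite T := H802.finite_of_le hT.1
  refine ⟨fun s hs => hs.1, fun R hR φ hφ x => ?_⟩
  obtain ⟨ψ, hψ, h1⟩ := H759.exists_lift hS hF hT R φ hφ
  have hψm := mp_ex hψ
  have hxR : (x : Ω) ∈ R ⊔ T := (le_sup_left : R ≤ _) x.2
  have h2 := h1 x hxR
  obtain ⟨b, hb, hbe⟩ := exists_ac (hψm.res le_sup_right) fun y hy =>
    mp_mem_of_stronglyClosed hT hψm ((le_sup_right : T ≤ _) hy) hy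
  obtain ⟨hxS, hxn, κ, hκ, h3⟩ := hR x.2
  have h4 : ψ ⟨x, hxR⟩ ∈ NK S T K := by
    have h5 : ex ψ x ∈ S := hψm.mem hxR
    rw [ex_apply _ hxR] at h5
    refine ⟨h5, H759.StronglyClosed.le_normalizer hT h5, b * κ * b⁻¹, hKn b hb κ hκ,
      fun y hy => ?_⟩
    have h6 : ex ψ (ac b⁻¹ y) = y := by rw [hbe _ (ac_mem _ hy), ac_ac_inv b hy]
    have h7 : ac b⁻¹ y ∈ R ⊔ T := (le_sup_right : T ≤ _) (ac_mem _ hy)
    rw [ac_mul _ _ hy, ac_mul _ _ (ac_mem _ hy), ← h3 _ (ac_mem _ hy),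
      ← hbe _ ((Subgroup.mem_normalizer_iff.1 hxn _).1 (ac_mem _ hy)),
      hψm.mul (mul_mem hxR h7) (inv_mem hxR), hψm.mul hxR h7, hψm.inv hxR, h6,
      ex_apply _ hxR]
  have h5 : φ x = ψ ⟨x, hxR⟩ * ((φ x)⁻¹ * ψ ⟨x, hxR⟩)⁻¹ := by group
  rw [h5]
  exact mul_mem h4 (inv_mem (hTK h2))

/-- The stage of the descent attached to `K`. -/
structure Step (p : ℕ) (E : FusionSystem T) (F : FusionSystem S) (K : Subgroup (MulAut T))
    {U : Subgroup Ω} (G : FusionSystem U) : Prop where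
  hEF : E.IsNormalIn F p
  hU : U = NK S T K
  norm : G.IsNormalIn F p
  aut : G.autGroup T = K
  enorm : E.IsNormalIn G p
  limit : ∀ {V W : Subgroup Ω} (L₁ : FusionSystem V) (L₂ : FusionSystem W),
    L₁.IsResidualLimitOf F p → L₂.IsResidualLimitOf G p → HomEq L₁ L₂

namespace Step

variable [Finite S] [Fact p.Prime] {E : FusionSystem T} {F : FusionSystem S}
  {K : Subgroup (MulAut T)} {G : FusionSystem U}

/-- The initial stage. -/
theorem start (hS : IsPGroup p S) (hE : E.IsNormalIn F p) : Step p E F (F.autGroup T) F := by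
  have hT : F.StronglyClosed T := hE.1.2.2.2.1
  refine ⟨hE, ?_, normal_self hE.1.2.1, rfl, hE, fun L₁ L₂ h₁ h₂ =>
    limit_unique h₁ h₂ inferInstance inferInstance hS⟩
  refine le_antisymm (fun s hs => ?_) (fun s hs => hs.1)
  have hsn := H759.StronglyClosed.le_normalizer hT hs
  exact ⟨hs, hsn, _, conjAut_mem_autGroup hT.1 hs hsn, fun x hx => by rw [ac_apply _ hx]; rfl⟩

section facts

variable (h : Step p E F K G)

include h

omit [Finite S] [Fact p.Prime] in
theorem US : U ≤ S := by rw [h.hU]; exact fun s hs => hs.1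

omit [Finite S] [Fact p.Prime] in
theorem TU : T ≤ U := le_of_sub h.enorm.1.2.2.1

omit [Finite S] [Fact p.Prime] in
theorem GF : G.IsSubsystemOf F := h.norm.1.2.2.1

omit [Finite S] [Fact p.Prime] in
theorem EG : E.IsSubsystemOf G := h.enorm.1.2.2.1

omit [Finite S] [Fact p.Prime] in
theorem EF : E.IsSubsystemOf F := fun P => (h.EG P).trans (h.GF P)

omit [Finite S] [Fact p.Prime] in
theorem Gs : G.IsSaturated p := h.norm.1.1

omit [Finite S] [Fact p.Prime] in
theorem Fs : F.IsSaturated p := h.norm.1.2.1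

omit [Finite S] [Fact p.Prime] in
theorem KF : K ≤ F.autGroup T := by rw [← h.aut]; exact autGroup_mono' h.GF T

omit [Finite S] [Fact p.Prime] in
theorem CU : centralizerIn S T ≤ U := by rw [h.hU]; exact centralizerIn_le_NK

omit [Finite S] [Fact p.Prime] in
theorem cent_eq : centralizerIn U T = centralizerIn S T :=
  le_antisymm (inf_le_inf_right _ h.US) (le_inf h.CU inf_le_right)

omit [Finite S] [Fact p.Prime] in
/-- Common part of the two steps: normality in `F`. -/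
theorem norm_of [Finite S] {U' : Subgroup Ω} {G' : FusionSystem U'} (hU'U : U' ≤ U)
    (hG's : G'.IsSaturated p) (hG'G : G'.IsSubsystemOf G) (hU' : F.StronglyClosed U')
    (hTU' : T ≤ U') (hCU' : centralizerIn S T ≤ U') (hI : InvC G' F)
    (hFr : ∀ (P : Subgroup Ω) (f : Ω → Ω), P ≤ U' → Mp G P f → FratC G' G P f) :
    G'.IsNormalIn F p := by
  have hfU' : Finite U' := H802.finite_of_le hU'.1
  have hfU : Finite U := H802.finite_of_le h.US
  refine isNormalIn_of_centralizer h.Fs hG's ?_ ?_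
  · rw [isInvariantIn_iff]
    refine ⟨fun P => (hG'G P).trans (h.GF P), hU', hI, fun P f hPU' hf => ?_⟩
    obtain ⟨-, -, -, hFrG⟩ := isInvariantIn_iff.1 h.norm.1.2.2
    exact fratC_trans hU'U hU' h.GF hG'G hPU' (hFrG P f (hPU'.trans hU'U) hf) hFr
  · exact (inf_le_inf_left S (Subgroup.centralizer_le hTU')).trans hCU'

end facts

/-! ### The step of index prime to `p` -/

/-- The maps of `G` all of whose conjugates under `Aut_F(U)` lie in `D`. -/
noncomputable def coreG [Finite U] {F : FusionSystem S} (hU : F.StronglyClosed U)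
    (G D : FusionSystem U) : FusionSystem U :=
  subSys G U (fun P f => ∀ (a h : Ω → Ω) (R : Subgroup Ω), Mp F U a →
      (∀ y ∈ R, ∃ x ∈ P, a x = y ∧ h y = a (f x)) → Mp D R h)
    (by
      intro P f g hf h he a k R ha hR
      refine h a k R ha fun y hy => ?_
      obtain ⟨x, hx, h1, h2⟩ := hR y hy
      exact ⟨x, hx, h1, by rw [h2, he x hx]⟩)
    (fun P f hf _ => ⟨hf.le, fun x hx => hf.mem hx⟩)
    (by
      intro P hP s hs
      refine ⟨mp_conj G hP hs, fun a h R ha hR => ?_⟩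
      have ham : ∀ x ∈ U, a x ∈ U := fun x hx => mp_mem_of_stronglyClosed hU ha hx hx
      have hRS : R ≤ U := by
        intro y hy
        obtain ⟨x, hx, rfl, -⟩ := hR y hy
        exact ham x (hP hx)
      refine (mp_conj D hRS (ham s hs)).congr fun y hy => ?_
      obtain ⟨x, hx, rfl, h2⟩ := hR y hy
      rw [h2, ha.mul (mul_mem hs (hP hx)) (inv_mem hs), ha.mul hs (hP hx), ha.inv hs])
    (by
      intro P Q f g hf hg h1 h2 hPQ a h R ha hR
      obtain ⟨b, hb, hb1, hb2⟩ := exists_inv_T hU ha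
      obtain ⟨Q', hQ', hQ'S, -⟩ := Mp.exists_im ha hg.le
      have h3 : Mp D R (fun y => a (f (b y))) := h1 a _ R ha fun y hy => by
        obtain ⟨x, hx, rfl, -⟩ := hR y hy
        exact ⟨x, hx, rfl, by rw [hb1 x (hf.le hx)]⟩
      have h4 : Mp D Q' (fun y => a (g (b y))) := h2 a _ Q' ha fun y hy => by
        obtain ⟨x, hx, rfl⟩ := (hQ' y).1 hy
        exact ⟨x, hx, rfl, by rw [hb1 x (hg.le hx)]⟩
      refine (h3.comp h4 ?_).congr ?_
      · intro y hy
        obtain ⟨x, hx, rfl, -⟩ := hR y hy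
        rw [hb1 x (hf.le hx)]
        exact hQ'.apply (hPQ x hx)
      · intro y hy
        obtain ⟨x, hx, rfl, h5⟩ := hR y hy
        show h (a x) = a (g (b (a (f (b (a x))))))
        rw [h5, hb1 x (hf.le hx), hb1 _ (hf.mem hx)])
    (by
      intro P R f g hf h1 hg hinv hfR a h R' ha hR'
      obtain ⟨b, hb, hb1, hb2⟩ := exists_inv_T hU ha
      obtain ⟨P', hP', hP'S, -⟩ := Mp.exists_im ha hf.le
      have h3 : Mp D P' (fun y => a (f (b y))) := h1 a _ P' ha fun y hy => by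
        obtain ⟨x, hx, rfl⟩ := (hP' y).1 hy
        exact ⟨x, hx, rfl, by rw [hb1 x (hf.le hx)]⟩
      refine h3.symm fun y hy => ?_
      obtain ⟨z, hz, rfl, h5⟩ := hR' y hy
      obtain ⟨x, hx, rfl, h6⟩ := hinv z hz
      exact ⟨a x, hP'.apply hx, by rw [hb1 x (hf.le hx)], by rw [h5, h6]⟩)

theorem mp_coreG_iff [Finite U] {hU : F.StronglyClosed U} {D : FusionSystem U}
    {P : Subgroup Ω} {f : Ω → Ω} :
    Mp (coreG hU G D) P f ↔ Mp G P f ∧ ∀ (a h : Ω → Ω) (R : Subgroup Ω), Mp F U a →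
      (∀ y ∈ R, ∃ x ∈ P, a x = y ∧ h y = a (f x)) → Mp D R h := mp_subSys_iff

/-- Restriction of an element of `Aut_F(U)` to `T`. -/
theorem exists_resU [Finite S] (hT : F.StronglyClosed T) (hTU : T ≤ U) {a : Ω → Ω} (ha : Mp F U a) :
    ∃ b ∈ F.autGroup T, ∀ x ∈ T, a x = ac b x := by
  have : Finite T := H802.finite_of_le hT.1
  exact exists_ac (ha.res hTU) fun x hx => mp_mem_of_stronglyClosed hT ha (hTU hx) hx

theorem fr_change {E : FusionSystem T} {G : FusionSystem U} {F : FusionSystem S} {P : Subgroup Ω}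
    {f : Ω → Ω} {a : MulAut T} (h : Fr E G P f a) (ha : a ∈ F.autGroup T) : Fr E F P f a :=
  ⟨ha, h.2⟩

theorem invC_coreG [Finite U] {hU : F.StronglyClosed U} {D : FusionSystem U}
    (hGF : G.IsSubsystemOf F) : InvC (coreG hU G D) G := by
  intro P R f a h hf ha hR
  obtain ⟨h1, h2⟩ := mp_coreG_iff.1 hf
  rw [mp_coreG_iff]
  refine ⟨invC_self P R f a h h1 ha hR, ?_⟩
  intro b k R' hb hR'
  refine h2 (fun x => b (a x)) k R' ((mp_mono hGF ha).comp hb fun x hx => ha.mem hx) fun y hy => ?_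
  obtain ⟨z, hz, rfl, h3⟩ := hR' y hy
  obtain ⟨x, hx, rfl, h4⟩ := hR z hz
  exact ⟨x, hx, rfl, by rw [h3, h4]⟩

theorem invC_charSys (h : Step p E F K G) {K' : Subgroup (MulAut T)}
    (hK'K : K' ≤ K) (hK'n : ∀ a ∈ F.autGroup T, ∀ k ∈ K', a * k * a⁻¹ ∈ K') :
    InvC (charSys E G K') F := by
  have hfU : Finite U := H802.finite_of_le h.US
  have hfT : Finite T := H802.finite_of_le (h.TU.trans h.US)
  have hTS : T ≤ S := h.TU.trans h.US
  have hTF : F.StronglyClosed T := h.hEF.1.2.2.2.1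
  have hUF : F.StronglyClosed U := h.norm.1.2.2.2.1
  obtain ⟨-, -, hGI, hGFr⟩ := isInvariantIn_iff.1 h.norm.1.2.2
  obtain ⟨-, -, hEI, hEFr⟩ := isInvariantIn_iff.1 h.hEF.1.2.2
  have hTC : ∀ P, TC G T P ↔ TC F T P := fun P =>
    (isCentric_iff_tc h.enorm.1.2.2).symm.trans (isCentric_iff_tc h.hEF.1.2.2)
  intro P R f a k hf ha hR
  obtain ⟨hf1, hf2⟩ := mp_charSys_iff.1 hf
  refine mp_charSys_iff.2 ⟨hGI P R f a k hf1 ha hR, fun D hDI hDg => ?_⟩
  have hcore := hf2 (coreG hUF G D) (invC_coreG h.GF) ?_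
  · exact (mp_coreG_iff.1 hcore).2 a k R ha hR
  intro P₀ f₀ hP₀ hf₀ hκ₀
  rw [mp_coreG_iff]
  refine ⟨hf₀, fun c m R₀ hc hR₀ => ?_⟩
  obtain ⟨c', hc', hc1, hc2⟩ := exists_inv_T hUF hc
  obtain ⟨R₁, hR₁, hR₁S, -⟩ := Mp.exists_im hc hf₀.le
  have hcU : ∀ x ∈ U, c x ∈ U := fun x hx => mp_mem_of_stronglyClosed hUF hc hx hx
  have hR₁U : R₁ ≤ U := by
    intro y hy
    obtain ⟨x, hx, rfl⟩ := (hR₁ y).1 hy
    exact hcU x (hf₀.le hx)
  have hm : ∀ y ∈ R₁, ∃ x ∈ P₀, c x = y ∧ (fun y => c (f₀ (c' y))) y = c (f₀ x) := by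
    intro y hy
    obtain ⟨x, hx, rfl⟩ := (hR₁ y).1 hy
    exact ⟨x, hx, rfl, by show c (f₀ (c' (c x))) = _; rw [hc1 x (hf₀.le hx)]⟩
  have hm1 : Mp G R₁ (fun y => c (f₀ (c' y))) := hGI P₀ R₁ f₀ c _ hf₀ hc hm
  have hRT : ∀ y, y ∈ R₁ ⊓ T ↔ ∃ x ∈ P₀ ⊓ T, c x = y := by
    intro y
    constructor
    · rintro ⟨hy, hyT⟩
      obtain ⟨x, hx, rfl⟩ := (hR₁ y).1 hy
      exact ⟨x, ⟨hx, mp_mem_of_stronglyClosed' hTF hc (hf₀.le hx) hyT⟩, rfl⟩
    · rintro ⟨x, hx, rfl⟩
      exact ⟨hR₁.apply hx.1, mp_mem_of_stronglyClosed hTF hc (hf₀.le hx.1) hx.2⟩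
  have hmD : Mp D R₁ (fun y => c (f₀ (c' y))) := by
    refine hDg R₁ _ ⟨hR₁U, ?_⟩ hm1 ?_
    · rw [hTC]
      exact ((hTC _).1 hP₀.2).image hTF (hc.res (inf_le_left.trans hf₀.le)) hRT
    · obtain ⟨κ, hκ, h3⟩ := hκ₀
      obtain ⟨b, hb, hab⟩ := exists_resU hTF h.TU hc
      have hκF : κ ∈ F.autGroup T := h.KF (hK'K hκ)
      have hbi : ∀ y ∈ R₁ ⊓ T, ac b⁻¹ y ∈ P₀ ⊓ T ∧ c (ac b⁻¹ y) = y := by
        rintro y hy
        obtain ⟨x, hx, rfl⟩ := (hRT y).1 hy
        rw [hab x hx.2, ac_inv_ac b hx.2]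
        exact ⟨hx, hab x hx.2⟩
      have hbk : b * (κ * b⁻¹) ∈ K' := by rw [← mul_assoc]; exact hK'n b hb κ hκ
      refine ⟨b * (κ * b⁻¹), hbk, ?_⟩
      have hf₀T : ∀ x ∈ P₀ ⊓ T, f₀ x ∈ T := fun x hx =>
        mp_mem_of_stronglyClosed hTF (mp_mono h.GF hf₀) hx.1 hx.2
      have h4 : Fr E F (R₁ ⊓ T) (ac b⁻¹) b⁻¹ := Fr.of_aut (inv_mem hb) inf_le_right
      have h5 : Fr E F T (ac b) b := Fr.of_aut hb le_rfl
      have h6 := (h4.comp hTS hEI (fr_change h3 hκF) fun y hy => (hbi y hy).1).comp hTS hEI h5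
        fun y hy => hf₀T _ (hbi y hy).1
      refine fr_change (h6.congr fun y hy => ?_) (by rw [h.aut]; exact hK'K hbk)
      obtain ⟨x, hx, rfl⟩ := (hRT y).1 hy
      have h8 : ac b⁻¹ (c x) = x := by rw [hab x hx.2, ac_inv_ac b hx.2]
      show c (f₀ (c' (c x))) = ac b (f₀ (ac b⁻¹ (c x)))
      rw [h8, hc1 x (hf₀.le hx.1)]
      exact hab _ (hf₀T x hx)
  have hR₀R₁ : R₀ ≤ R₁ := by
    intro y hy
    obtain ⟨x, hx, rfl, -⟩ := hR₀ y hy
    exact hR₁.apply hx
  refine (hmD.res hR₀R₁).congr fun y hy => ?_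
  obtain ⟨x, hx, rfl, h9⟩ := hR₀ y hy
  rw [h9, hc1 x (hf₀.le hx)]

end Step

end Cfsg.Agent.H770
end

-- part: H770/StepA
section
/-!
# The step of index prime to `p` (helper770)
-/

set_option autoImplicit false
set_option linter.unusedVariables false

namespace Cfsg.Agent.H770

open Cfsg Cfsg.FusionSystem Cfsg.Agent.H752 Cfsg.Agent.H756

variable {Ω : Type*} [Group Ω] {S T U : Subgroup Ω} {p : ℕ}

namespace Step

variable [Finite S] [Fact p.Prime] {E : FusionSystem T} {F : FusionSystem S}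
  {K : Subgroup (MulAut T)} {G : FusionSystem U}

theorem pprime (h : Step p E F K G) (hS : IsPGroup p S) {K' : Subgroup (MulAut T)}
    (hK'K : K' ≤ K) (hK'n : ∀ a ∈ F.autGroup T, ∀ k ∈ K', a * k * a⁻¹ ∈ K')
    (hEK' : E.autGroup T ≤ K') (hp : ∀ k ∈ K, ∀ n : ℕ, k ^ p ^ n ∈ K' → k ∈ K') :
    Step p E F K' (charSys E G K') := by
  have hfU : Finite U := H802.finite_of_le h.US
  have hfT : Finite T := H802.finite_of_le (h.TU.trans h.US)
  have hTS : T ≤ S := h.TU.trans h.US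
  have hUp : IsPGroup p U := hS.to_le h.US
  have hCD : CharData p E G K' := by
    refine ⟨hUp, h.enorm.1, by rw [h.aut]; exact hK'K, fun a ha k hk =>
      hK'n a (autGroup_mono' h.GF T ha) k hk, hEK', fun a ha n hn => hp a ?_ n hn⟩
    rwa [h.aut] at ha
  have hPD := hCD.pdata
  have hsat : (charSys E G K').IsSaturated p := hPD.isSaturated hUp h.Gs
  have hUF : F.StronglyClosed U := h.norm.1.2.2.2.1
  have haut : (charSys E G K').autGroup T = K' := hCD.autGroup_T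
  have hNK : NK S T K' = NK S T K := by
    refine le_antisymm (NK_mono hK'K) ?_
    rintro s ⟨hs, hsn, κ, hκ, h1⟩
    refine ⟨hs, hsn, κ, ?_, h1⟩
    have h2 : κ = H759.conjAut T s hsn := by
      ext x
      rw [← ac_apply _ x.2, ← h1 x x.2]
      rfl
    obtain ⟨n, hn⟩ := conjAut_ppow (p := p) hS hs hsn
    refine hp κ hκ n ?_
    rw [h2, hn]
    exact one_mem _
  refine ⟨h.hEF, by rw [hNK]; exact h.hU, ?_, haut, ?_, ?_⟩
  · refine h.norm_of le_rfl hsat CharData.charSys_sub hUF h.TU h.CU (h.invC_charSys hK'K hK'n) ?_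
    intro P f hP hf
    obtain ⟨a, ha⟩ := hPD.frat hUp h.Gs P f hf
    exact ha.fratC le_rfl
  · refine isNormalIn_restrict hUp h.enorm CharData.charSys_sub hsat hCD.E_sub fun a ha => ?_
    obtain ⟨b, hb, h1, h2⟩ := ((isNormalIn_iff h.TU).1 h.enorm).2.2.2 a ha
    refine ⟨b, CharData.mp_of_ke (hCD.qt_self le_sup_left hb.le) hb ⟨1, one_mem _, Fr.one ?_⟩, h1, h2⟩
    exact (ha.res inf_le_right).congr fun x hx => h1 x hx.2
  · intro V W L₁ L₂ h₁ h₂
    obtain ⟨V', L, hL⟩ := exists_limit' hUp h.Gs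
    exact (h.limit L₁ L h₁ hL).trans
      (limit_pidx hUp h.Gs hsat (hPD.primeIndex hUp h.Gs) hL h₂)

end Step

end Cfsg.Agent.H770
end

-- part: H770/StepB
section
/-!
# The step of `p`-power index (helper770)
-/

set_option autoImplicit false
set_option linter.unusedVariables false

namespace Cfsg.Agent.H770

open Cfsg Cfsg.FusionSystem Cfsg.Agent.H752 Cfsg.Agent.H756

variable {Ω : Type*} [Group Ω] {S T U : Subgroup Ω} {p : ℕ}

theorem exists_pow_coprime {A : Type*} [Group A] [Fact p.Prime] {g : A} (hg : 0 < orderOf g)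
    {n : ℕ} (hn : n.Coprime p) : ∃ r : ℕ, r ≡ 1 [MOD n] ∧ (orderOf (g ^ r)).Coprime p := by
  obtain ⟨k, m, hm, he⟩ := Nat.exists_eq_pow_mul_and_not_dvd hg.ne' p (Fact.out : p.Prime).ne_one
  have hco : Nat.Coprime n (p ^ k) := Nat.Coprime.pow_right k hn
  obtain ⟨r, hr1, hr2⟩ := Nat.chineseRemainder hco 1 0
  refine ⟨r, hr1, ?_⟩
  have h1 : p ^ k ∣ r := (Nat.modEq_zero_iff_dvd).1 hr2
  have h2 : orderOf (g ^ r) ∣ m := by
    rw [orderOf_dvd_iff_pow_eq_one, ← pow_mul]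
    apply orderOf_dvd_iff_pow_eq_one.1
    rw [he]
    exact mul_dvd_mul_right h1 m
  have h3 : m.Coprime p := ((Nat.Prime.coprime_iff_not_dvd Fact.out).2 hm).symm
  exact Nat.Coprime.coprime_dvd_left h2 h3

/-- Lifting of automorphisms of order prime to `p` modulo a strongly closed subgroup. -/
theorem exists_lift_coprime [Finite S] [Fact p.Prime] (hS : IsPGroup p S) {F : FusionSystem S}
    (hF : F.IsSaturated p) (hT : F.StronglyClosed T) {P : Subgroup Ω} (hPS : P ≤ S)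
    {α : MulAut P} (hα : α ∈ F.autGroup P) (hc : (orderOf α).Coprime p) :
    ∃ β ∈ F.autGroup (P ⊔ T), (orderOf β).Coprime p ∧ ∀ x ∈ P, (ac α x)⁻¹ * ac β x ∈ T := by
  have hPTS : P ⊔ T ≤ S := sup_le hPS hT.1
  have hfPT : Finite (P ⊔ T : Subgroup Ω) := H802.finite_of_le hPTS
  obtain ⟨ψ, hψ, h1⟩ := H759.exists_lift hS hF hT P _ ((H802.mem_autGroup_iff F hPS α).1 hα)
  have hψm := mp_ex hψ
  have h2 : ∀ x ∈ P, (ac α x)⁻¹ * ex ψ x ∈ T := by
    intro x hx
    have hx' : x ∈ P ⊔ T := (le_sup_left : P ≤ _) hx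
    rw [ac_apply _ hx, ex_apply _ hx']
    exact h1 ⟨x, hx⟩ hx'
  have hm : ∀ x ∈ P ⊔ T, ex ψ x ∈ P ⊔ T := by
    refine hψm.mem_sup (fun x hx => ?_) (fun x hx => ?_)
    · have h3 : ex ψ x = ac α x * ((ac α x)⁻¹ * ex ψ x) := by group
      rw [h3]
      exact mul_mem ((le_sup_left : P ≤ _) (ac_mem _ hx)) ((le_sup_right : T ≤ _) (h2 x hx))
    · exact (le_sup_right : T ≤ _) (mp_mem_of_stronglyClosed hT hψm ((le_sup_right : T ≤ _) hx) hx)
  obtain ⟨β, hβ, hβe⟩ := exists_ac hψm hm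
  have h3 : ∀ n : ℕ, ∀ x ∈ P, (ac (α ^ n) x)⁻¹ * ac (β ^ n) x ∈ T := by
    intro n
    induction n with
    | zero =>
      intro x hx
      rw [pow_zero, pow_zero, ac_one hx, ac_one ((le_sup_left : P ≤ _) hx), inv_mul_cancel]
      exact one_mem _
    | succ n ih =>
      intro x hx
      have hx' : x ∈ P ⊔ T := (le_sup_left : P ≤ _) hx
      rw [pow_succ', pow_succ', ac_mul _ _ hx, ac_mul _ _ hx']
      have h4 := ih x hx
      have hy : ac (α ^ n) x ∈ P := ac_mem _ hx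
      have hz : ac (β ^ n) x ∈ P ⊔ T := ac_mem _ hx'
      generalize ac (α ^ n) x = y at h4 hy ⊢
      generalize ac (β ^ n) x = z at h4 hz ⊢
      have hy' : y ∈ P ⊔ T := (le_sup_left : P ≤ _) hy
      have h5 := mp_mem_of_stronglyClosed hT hψm ((le_sup_right : T ≤ _) h4) h4
      have h6 := h2 y hy
      rw [hβe _ hy'] at h6
      rw [hβe _ ((le_sup_right : T ≤ _) h4)] at h5
      have h7 : z = y * (y⁻¹ * z) := by group
      have h8 : ac β z = ac β y * ac β (y⁻¹ * z) := by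
        conv_lhs => rw [h7]
        exact (mp_ac hPTS hβ).mul hy' ((le_sup_right : T ≤ _) h4)
      rw [h8, ← mul_assoc]
      exact mul_mem h6 h5
  obtain ⟨r, hr, hrc⟩ := exists_pow_coprime (orderOf_pos β) hc
  refine ⟨β ^ r, pow_mem hβ r, hrc, fun x hx => ?_⟩
  have h4 := h3 r x hx
  have h5 : α ^ r = α := by
    have := pow_eq_pow_iff_modEq.2 hr
    rwa [pow_one] at this
  rwa [h5] at h4

/-- The hyperfocal subgroup lies in `NK`. -/
theorem hyp_le_NK [Finite U] [Fact p.Prime] (hU : IsPGroup p U) {G : FusionSystem U}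
    (hG : G.IsSaturated p) (hT : G.StronglyClosed T) {K' : Subgroup (MulAut T)}
    (hK'n : ∀ a ∈ G.autGroup T, ∀ k ∈ K', a * k * a⁻¹ ∈ K')
    (hp : ∀ a ∈ G.autGroup T, (orderOf a).Coprime p → a ∈ K')
    (hTK : T ≤ NK U T K') : G.hyperfocalSubgroup p ≤ NK U T K' := by
  rw [hyp_le_iff]
  intro P hPU α hα hc x
  obtain ⟨β, hβ, hβc, h1⟩ := exists_lift_coprime hU hG hT hPU hα hc
  have hPTU : P ⊔ T ≤ U := sup_le hPU hT.1
  have hfT : Finite T := H802.finite_of_le hT.1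
  have hβm := mp_ac hPTU hβ
  obtain ⟨b, hb, hbr⟩ := H752.exists_restr (le_sup_right : T ≤ P ⊔ T) hPTU hβ fun y hy => by
    have := mp_mem_of_stronglyClosed hT hβm ((le_sup_right : T ≤ _) hy) hy
    rwa [ac_apply] at this
  have hbc : (orderOf b).Coprime p := Nat.Coprime.coprime_dvd_left hbr.orderOf_dvd hβc
  have hbK := hp b hb hbc
  have hbe : ∀ t ∈ T, ac β t = ac b t := by
    intro t ht
    rw [ac_apply _ ((le_sup_right : T ≤ P ⊔ T) ht), ac_apply _ ht]
    exact hbr t ht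
  have hxU : (x : Ω) ∈ U := hPU x.2
  have hxn := H759.StronglyClosed.le_normalizer hT hxU
  have hx' : (x : Ω) ∈ P ⊔ T := (le_sup_left : P ≤ _) x.2
  set c := H759.conjAut T (x : Ω) hxn with hcdef
  have hcG : c ∈ G.autGroup T := conjAut_mem_autGroup hT.1 hxU hxn
  have hce : ∀ t ∈ T, (x : Ω) * t * (x : Ω)⁻¹ = ac c t := by
    intro t ht
    rw [ac_apply _ ht]
    rfl
  have h2 : (x : Ω)⁻¹ * ac β x ∈ NK U T K' := by
    have hgU : (x : Ω)⁻¹ * ac β x ∈ U := U.mul_mem (U.inv_mem hxU) (hPTU (ac_mem _ hx'))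
    refine ⟨hgU, H759.StronglyClosed.le_normalizer hT hgU, c⁻¹ * b * c⁻¹⁻¹ * b⁻¹,
      mul_mem (hK'n _ (inv_mem hcG) _ hbK) (inv_mem hbK), fun t ht => ?_⟩
    have hs : ac b⁻¹ t ∈ T := ac_mem _ ht
    have hs' : ac b⁻¹ t ∈ P ⊔ T := (le_sup_right : T ≤ _) hs
    have h3 : ac β (ac b⁻¹ t) = t := by rw [hbe _ hs, ac_ac_inv b ht]
    have h4 : ac β ((x : Ω) * ac b⁻¹ t * (x : Ω)⁻¹) = ac β x * t * (ac β x)⁻¹ := by
      rw [hβm.mul (mul_mem hx' hs') (inv_mem hx'), hβm.mul hx' hs', hβm.inv hx', h3]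
    have e : c⁻¹ * b * c⁻¹⁻¹ * b⁻¹ = c⁻¹ * (b * (c * b⁻¹)) := by group
    rw [e, ac_mul _ _ ht, ac_mul _ _ ht, ac_mul _ _ ht, ← hce _ hs,
      ← hbe _ (by rw [hce _ hs]; exact ac_mem _ hs), h4]
    have h5 : ac β x * t * (ac β x)⁻¹ ∈ T := H759.StronglyClosed.conj_mem hT
      (hPTU (ac_mem _ hx')) ht
    have h6 : ac c ((x : Ω)⁻¹ * (ac β x * t * (ac β x)⁻¹) * x) = ac β x * t * (ac β x)⁻¹ := by
      have h7 := H759.StronglyClosed.conj_mem' hT hxU h5
      rw [← hce _ h7]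
      group
    rw [← h6, ac_inv_ac _ (H759.StronglyClosed.conj_mem' hT hxU h5)]
    group
  have h3 : (x : Ω)⁻¹ * ((α x : P) : Ω) = ((x : Ω)⁻¹ * ac β x) * ((ac α x)⁻¹ * ac β x)⁻¹ := by
    rw [← ac_apply α x.2]
    group
  rw [h3]
  exact mul_mem h2 (inv_mem (hTK (h1 x x.2)))

/-- `E ≤ G` if `G` contains the automorphisms in `E` of order prime to `p`. -/
theorem sub_of_coprime [Finite T] [Fact p.Prime] (hT : IsPGroup p T) {E : FusionSystem T}
    (hE : E.IsSaturated p) {G : FusionSystem U} (hTU : T ≤ U)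
    (h : ∀ P ≤ T, ∀ α ∈ E.autGroup P, (orderOf α).Coprime p → α ∈ G.autGroup P) :
    E.IsSubsystemOf G := by
  refine isSubsystemOf_of_mp (mp_generation E hT hE (fun P f => Mp G P f) ?_ ?_ ?_ ?_ ?_ ?_)
  · exact fun P f g _ h he => h.congr he
  · exact fun P R f _ h hR => h.res hR
  · exact fun P Q f g _ _ h1 h2 hPQ => h1.comp h2 hPQ
  · exact fun P R f g _ h1 _ hinv => h1.symm hinv
  · exact fun P hP s hs => mp_conj G (hP.trans hTU) (hTU hs)
  · intro Q hQa _ α hα hc f hf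
    exact (mp_ac (hQa.1.trans hTU) (h Q hQa.1 α hα hc)).congr fun x hx => by
      rw [hf x hx, ac_apply α hx]

/-- An element of `Aut_F(T)` of `p`-power order is conjugate to a conjugation by an element of `S`. -/
theorem exists_conj_T [Finite S] [Fact p.Prime] {F : FusionSystem S} (hF : F.IsSaturated p)
    (hT : F.StronglyClosed T) {α : MulAut T} (hα : α ∈ F.autGroup T) {n : ℕ} (hn : α ^ p ^ n = 1) :
    ∃ γ ∈ F.autGroup T, ∃ s ∈ S, ∃ hs : s ∈ Subgroup.normalizer (T : Set Ω),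
      γ * α * γ⁻¹ = H759.conjAut T s hs := by
  have hfT : Finite T := H802.finite_of_le hT.1
  obtain ⟨φ, hφ, g, hg, h1⟩ := H802.exists_conj_of_orderOf hF hT.1 hα hn
  have hφm := mp_ex hφ
  obtain ⟨γ, hγ, h2⟩ := exists_ac hφm fun x hx => mp_mem_of_stronglyClosed hT hφm hx hx
  refine ⟨γ, hγ, g, hg, H759.StronglyClosed.le_normalizer hT hg, ?_⟩
  rw [mul_inv_eq_iff_eq_mul]
  ext x
  have h3 := h1 x
  rw [MulAut.mul_apply, MulAut.mul_apply, H759.coe_conjAut]
  have h4 : ((γ x : T) : Ω) = φ x := by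
    rw [← ac_apply γ x.2, ← h2 x x.2, ex_apply _ x.2]
  have h5 : ((γ (α x) : T) : Ω) = φ (α x) := by
    rw [← ac_apply γ (α x).2, ← h2 _ (α x).2, ex_apply _ (α x).2]
  rw [h4, h5, h3]

end Cfsg.Agent.H770
end

-- part: H770/StepC
section
/-!
# The step of `p`-power index (helper770)
-/

set_option autoImplicit false
set_option linter.unusedVariables false

namespace Cfsg.Agent.H770

open Cfsg Cfsg.FusionSystem Cfsg.Agent.H752 Cfsg.Agent.H756

variable {Ω : Type*} [Group Ω] {S T U : Subgroup Ω} {p : ℕ}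

namespace Step

variable [Finite S] [Fact p.Prime] {E : FusionSystem T} {F : FusionSystem S}
  {K : Subgroup (MulAut T)} {G : FusionSystem U}

/-- An element is a product of a `p`-element and a `p'`-element among its powers. -/
theorem mem_of_parts {A : Type*} [Group A] {K : Subgroup A} {g : A}
    (h1 : ∀ j : ℤ, (∃ n : ℕ, (g ^ j) ^ p ^ n = 1) → g ^ j ∈ K)
    (h2 : ∀ j : ℤ, (orderOf (g ^ j)).Coprime p → g ^ j ∈ K) [Finite A] : g ∈ K := by
  obtain ⟨a, b, hab, ⟨k, hk⟩, hb⟩ := TwoFusion.PResidual.exists_pPart_mul_pPrimePart p g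
  have h3 := h1 a ⟨k, by rw [← hk]; exact pow_orderOf_eq_one _⟩
  have h4 := h2 b hb
  rw [hab]
  exact mul_mem h3 h4

theorem conjAut_mem_of_NK {K' : Subgroup (MulAut T)} {s : Ω} (hs : s ∈ NK S T K')
    (hsn : s ∈ Subgroup.normalizer (T : Set Ω)) : H759.conjAut T s hsn ∈ K' := by
  obtain ⟨-, -, κ, hκ, h1⟩ := hs
  have h2 : H759.conjAut T s hsn = κ := by
    ext x
    rw [H759.coe_conjAut, h1 x x.2, ac_apply _ x.2]
  rw [h2]
  exact hκ

theorem ppow (h : Step p E F K G) (hS : IsPGroup p S) {K' : Subgroup (MulAut T)}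
    (hK'K : K' ≤ K) (hK'n : ∀ a ∈ F.autGroup T, ∀ k ∈ K', a * k * a⁻¹ ∈ K')
    (hEK' : E.autGroup T ≤ K') (hp : ∀ k ∈ K, ∃ n : ℕ, k ^ p ^ n ∈ K') :
    ∃ (U' : Subgroup Ω) (G' : FusionSystem U'), Step p E F K' G' := by
  have hfU : Finite U := H802.finite_of_le h.US
  have hfT : Finite T := H802.finite_of_le (h.TU.trans h.US)
  have hTS : T ≤ S := h.TU.trans h.US
  have hUp : IsPGroup p U := hS.to_le h.US
  have hTp : IsPGroup p T := hS.to_le hTS
  have hTF : F.StronglyClosed T := h.hEF.1.2.2.2.1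
  have hUF : F.StronglyClosed U := h.norm.1.2.2.2.1
  have hTU' : T ≤ NK S T K' := le_NK hTS hEK'
  have hU'U : NK S T K' ≤ U := by rw [h.hU]; exact NK_mono hK'K
  have hU'F : F.StronglyClosed (NK S T K') := nk_stronglyClosed hS h.Fs hTF hK'n hTU'
  have hfU' : Finite (NK S T K') := H802.finite_of_le hU'F.1
  have hU'p : IsPGroup p (NK S T K') := hS.to_le hU'F.1
  have hTG : G.StronglyClosed T := h.enorm.1.2.2.2.1
  have hU'G : G.StronglyClosed (NK S T K') :=
    ⟨hU'U, fun R hR φ hφ x => hU'F.2 R hR φ (h.GF R hφ) x⟩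
  have hK'nG : ∀ a ∈ G.autGroup T, ∀ k ∈ K', a * k * a⁻¹ ∈ K' := fun a ha k hk =>
    hK'n a (autGroup_mono' h.GF T ha) k hk
  have hpG : ∀ a ∈ G.autGroup T, (orderOf a).Coprime p → a ∈ K' := by
    intro a ha hc
    rw [h.aut] at ha
    obtain ⟨n, hn⟩ := hp a ha
    refine mem_of_pow_mem_of_coprime (n := p ^ n) (m := orderOf a) ?_ hn (hc.pow_right n)
    rw [pow_orderOf_eq_one]
    exact one_mem _
  have hhyp : G.hyperfocalSubgroup p ≤ NK S T K' := by
    refine (hyp_le_NK hUp h.Gs hTG hK'nG hpG fun t ht => ?_).trans ?_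
    · obtain ⟨h1, h2⟩ := hTU' ht
      exact ⟨h.TU ht, h2⟩
    · rintro s ⟨h1, h2⟩
      exact ⟨h.US h1, h2⟩
  obtain ⟨G', ⟨hG's, hG'i⟩, -⟩ := S5113.result p hUp G h.Gs _ hU'U hhyp
  have hprime : ∀ P : Subgroup Ω, P ≤ NK S T K' → ∀ α ∈ G.autGroup P,
      Nat.Coprime (orderOf α) p → α ∈ G'.autGroup P := fun P hP α hα hc =>
    mem_autGroup_of_coprime hG'i hP hα hc
  obtain ⟨-, -, hGI, hGFr⟩ := isInvariantIn_iff.1 h.norm.1.2.2
  have hI : InvC G' F := invC_ppow hU'p hU'F hG's hG'i (strongInvC_of_invC hGI hGFr)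
  have hnorm : G'.IsNormalIn G p := isNormalIn_of_pPowerIndex hUp h.Gs hU'U
    (fun s hs t ht => H759.StronglyClosed.conj_mem hU'G hs ht) hhyp hG's hG'i
  obtain ⟨-, -, hG'I, hG'Fr⟩ := isInvariantIn_iff.1 hnorm.1.2.2
  have hSI := strongInvC_of_invC hG'I hG'Fr
  have hTG' : G'.StronglyClosed T :=
    ⟨hTU', fun R hR φ hφ x => hTG.2 R hR φ (hG'i.1 R hφ) x⟩
  have haut : G'.autGroup T = K' := by
    apply le_antisymm
    · intro α hα
      refine mem_of_parts (p := p) (fun j ⟨n, hn⟩ => ?_) (fun j hc =>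
        hpG _ (zpow_mem (autGroup_mono' hG'i.1 T hα) j) hc)
      obtain ⟨γ, hγ, s, hs, hsn, h1⟩ := exists_conj_T hG's hTG' (zpow_mem hα j) hn
      have h2 := conjAut_mem_of_NK hs hsn
      have h3 := hK'n _ (inv_mem (autGroup_mono' hG'i.1 T hγ |> autGroup_mono' h.GF T)) _ h2
      rw [← h1] at h3
      have h4 : γ⁻¹ * (γ * α ^ j * γ⁻¹) * γ⁻¹⁻¹ = α ^ j := by group
      rwa [h4] at h3
    · intro κ hκ
      have hκG : κ ∈ G.autGroup T := by rw [h.aut]; exact hK'K hκ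
      refine mem_of_parts (p := p) (fun j ⟨n, hn⟩ => ?_) (fun j hc =>
        hprime T hTU' _ (zpow_mem hκG j) hc)
      obtain ⟨γ, hγ, s, hs, hsn, h1⟩ := exists_conj_T h.Gs hTG (zpow_mem hκG j) hn
      have h2 := hK'nG _ hγ _ (zpow_mem hκ j)
      rw [h1] at h2
      have hsU' : s ∈ NK S T K' := ⟨h.US hs, hsn, _, h2, fun x hx => by rw [ac_apply _ hx]; rfl⟩
      have h3 : H759.conjAut T s hsn ∈ G'.autGroup T := conjAut_mem_autGroup hTU' hsU' hsn
      apply mem_of_mp_ac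
      refine hSI T T T (ac (H759.conjAut T s hsn)) (ac γ⁻¹) (ac (κ ^ j)) le_rfl hTU'
        (mp_ac hTU' h3) (fun x hx => ac_mem _ hx) (mp_ac h.TU (inv_mem hγ)) fun y hy => ?_
      refine ⟨ac γ y, ac_mem _ hy, ac_inv_ac γ hy, ?_⟩
      rw [← h1, ← ac_mul _ _ hy, ← ac_mul _ _ hy]
      congr 1
      group
  have hEG' : E.IsSubsystemOf G' := sub_of_coprime hTp h.enorm.1.1 hTU' fun P hP α hα hc =>
    hprime P (hP.trans hTU') α (autGroup_mono' h.EG P hα) hc
  refine ⟨_, G', h.hEF, rfl, ?_, haut, ?_, ?_⟩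
  · exact h.norm_of hU'U hG's hG'i.1 hU'F hTU' centralizerIn_le_NK hI hG'Fr
  · refine isNormalIn_restrict hU'p h.enorm hG'i.1 hG's hEG' fun a ha =>
      extC_of_prime hU'p h.enorm.1.1 hTU' (fun α hα hc => ?_) a ha
    have hCC : centralizerIn (NK S T K') T = centralizerIn U T :=
      le_antisymm (inf_le_inf_right _ hU'U) (le_inf (by rw [h.cent_eq]; exact centralizerIn_le_NK)
        inf_le_right)
    obtain ⟨b, hb, h1, h2⟩ := ((isNormalIn_iff h.TU).1 h.enorm).2.2.2 _ (mp_ac le_rfl hα)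
    have hfm : ∀ x ∈ T, ac α x ∈ T := fun x hx => ac_mem _ hx
    have hsU : T ⊔ centralizerIn U T ≤ U := hb.le
    have hfs : Finite (T ⊔ centralizerIn U T : Subgroup Ω) := H802.finite_of_le hsU
    obtain ⟨β, hβ, h3⟩ := exists_ac hb (ExtC.maps_sup h.TU hb hfm h1 h2)
    obtain ⟨r, hr, hrc⟩ := exists_pow_coprime (orderOf_pos β) hc
    have hTs : T ≤ T ⊔ centralizerIn U T := le_sup_left
    have hCs : centralizerIn U T ≤ T ⊔ centralizerIn U T := le_sup_right
    have h4 : ∀ n : ℕ, ∀ x ∈ T, ac (β ^ n) x = ac (α ^ n) x := by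
      intro n
      induction n with
      | zero => intro x hx; rw [pow_zero, pow_zero, ac_one hx, ac_one (hTs hx)]
      | succ n ih =>
        intro x hx
        rw [pow_succ, pow_succ, ac_mul _ _ hx, ac_mul _ _ (hTs hx), ← h3 x (hTs hx), h1 x hx,
          ih _ (ac_mem _ hx)]
    have h5 : ∀ n : ℕ, ∀ c ∈ centralizerIn U T, c⁻¹ * ac (β ^ n) c ∈
        T ⊓ Subgroup.centralizer (T : Set Ω) := by
      intro n
      induction n with
      | zero =>
        intro c hc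
        rw [pow_zero, ac_one (hCs hc), inv_mul_cancel]
        exact one_mem _
      | succ n ih =>
        intro c hc
        rw [pow_succ, ac_mul _ _ (hCs hc), ← h3 c (hCs hc)]
        have h6 := ExtC.maps h.TU hc (h2 c hc)
        have h7 : c⁻¹ * ac (β ^ n) (b c) = (c⁻¹ * b c) * ((b c)⁻¹ * ac (β ^ n) (b c)) := by group
        rw [h7]
        exact mul_mem (h2 c hc) (ih _ h6)
    have h6 : α ^ r = α := by
      have := pow_eq_pow_iff_modEq.2 hr
      rwa [pow_one] at this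
    have h7 : β ^ r ∈ G'.autGroup (T ⊔ centralizerIn U T) :=
      hprime _ (sup_le hTU' (by rw [← hCC]; exact inf_le_left)) _ (pow_mem hβ r) hrc
    refine ⟨ac (β ^ r), ?_, fun x hx => ?_, fun c hc => ?_⟩
    · rw [hCC]
      exact mp_ac (sup_le hTU' (by rw [← hCC]; exact inf_le_left)) h7
    · rw [h4 r x hx, h6]
      rfl
    · rw [hCC] at hc
      exact h5 r c hc
  · intro V W L₁ L₂ h₁ h₂
    obtain ⟨V', L, hL⟩ := exists_limit' hUp h.Gs
    exact (h.limit L₁ L h₁ hL).trans (limit_ppow hUp h.Gs hG's hG'i hL h₂)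

end Step

end Cfsg.Agent.H770
end

-- part: H770/StepD
section
/-!
# Descent along a `p`-solvable quotient `Aut_F(T)/Aut_E(T)` (helper770)
-/

set_option autoImplicit false
set_option linter.unusedVariables false

namespace Cfsg.Agent.H770

open Cfsg Cfsg.FusionSystem Cfsg.Agent.H752 Cfsg.Agent.H756

variable {Ω : Type*} [Group Ω] {S T U : Subgroup Ω} {p : ℕ}

namespace Step

variable [Finite S] [Fact p.Prime] {E : FusionSystem T} {F : FusionSystem S}
  {K : Subgroup (MulAut T)} {G : FusionSystem U}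

omit [Finite S] in
/-- The last stage lives over `T C_S(T)`. -/
theorem nk_autGroup [Finite T] (hE : E.IsSaturated p) (hTS : T ≤ S) (hS : IsPGroup p S) :
    NK S T (E.autGroup T) = T ⊔ centralizerIn S T := by
  apply le_antisymm
  · rintro s ⟨hs, hsn, κ, hκ, h1⟩
    obtain ⟨n, hn⟩ := hS ⟨s, hs⟩
    have hn' : s ^ p ^ n = 1 := congrArg Subtype.val hn
    have hκn : κ ^ p ^ n = 1 := by
      have key : ∀ m : ℕ, ∀ x ∈ T, ac (κ ^ m) x = s ^ m * x * (s ^ m)⁻¹ := by
        intro m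
        induction m with
        | zero => intro x hx; rw [pow_zero, ac_one hx]; simp
        | succ m ih =>
          intro x hx
          rw [pow_succ', ac_mul _ _ hx, ← h1 _ (ac_mem _ hx), ih x hx, pow_succ']
          group
      ext x
      rw [← ac_apply _ x.2, key _ x x.2, hn']
      simp
    have hTT : E.StronglyClosed T := ⟨le_rfl, fun R _ φ hφ x => (E.le_of_mem hφ).2 x⟩
    obtain ⟨γ, hγ, t, ht, htn, h2⟩ := exists_conj_T hE hTT hκ hκn
    have ht' : ac γ⁻¹ t ∈ T := ac_mem _ ht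
    have hm : Mp E T (ac γ⁻¹) := mp_ac le_rfl (inv_mem hγ)
    have h3 : ∀ x ∈ T, ac κ x = ac γ⁻¹ t * x * (ac γ⁻¹ t)⁻¹ := by
      intro x hx
      have h4 : κ = γ⁻¹ * (H759.conjAut T t htn * γ) := by rw [← h2]; group
      rw [h4, ac_mul _ _ hx, ac_mul _ _ hx]
      have h5 : ac (H759.conjAut T t htn) (ac γ x) = t * ac γ x * t⁻¹ := by
        rw [ac_apply _ (ac_mem γ hx)]
        rfl
      rw [h5, hm.mul (mul_mem ht (ac_mem γ hx)) (inv_mem ht), hm.mul ht (ac_mem γ hx), hm.inv ht,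
        ac_inv_ac γ hx]
    have h6 : s = ac γ⁻¹ t * ((ac γ⁻¹ t)⁻¹ * s) := by group
    rw [h6]
    refine mul_mem ((le_sup_left : T ≤ _) ht') ((le_sup_right : centralizerIn S T ≤ _) ⟨?_, ?_⟩)
    · exact S.mul_mem (S.inv_mem (hTS ht')) hs
    · show _ ∈ Subgroup.centralizer (T : Set Ω)
      rw [Subgroup.mem_centralizer_iff]
      intro x hx
      have h7 := (h1 x hx).trans (h3 x hx)
      generalize ac γ⁻¹ t = r at h7 ht'
      have h8 : s * x = r * x * r⁻¹ * s := by rw [← h7]; group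
      have h9 : r⁻¹ * s * x = r⁻¹ * (s * x) := by group
      rw [h9, h8]
      group
  · exact sup_le (le_NK hTS le_rfl) centralizerIn_le_NK

/-- **Descent**. -/
theorem exists_of_pSolvable (hS : IsPGroup p S) (hE : E.IsNormalIn F p)
    [hn : ((E.autGroup T).subgroupOf (F.autGroup T)).Normal]
    (hsolv : IsPSolvable p (↥(F.autGroup T) ⧸ (E.autGroup T).subgroupOf (F.autGroup T))) :
    ∃ F₀ : FusionSystem (T ⊔ centralizerIn S T), Step p E F (E.autGroup T) F₀ := by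
  have hTS : T ≤ S := hE.1.2.2.2.1.1
  have hfT : Finite T := H802.finite_of_le hTS
  have hEF : E.IsSubsystemOf F := hE.1.2.2.1
  have hEFa : E.autGroup T ≤ F.autGroup T := autGroup_mono' hEF T
  obtain ⟨n, H, h0, hlast, hmono, hnorm, hidx⟩ := hsolv
  set N := (E.autGroup T).subgroupOf (F.autGroup T) with hN
  let Ks : Fin (n + 1) → Subgroup (MulAut T) := fun i =>
    ((H i).comap (QuotientGroup.mk' N)).map (F.autGroup T).subtype
  have hmem : ∀ i (k : MulAut T), k ∈ Ks i ↔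
      ∃ hk : k ∈ F.autGroup T, ((⟨k, hk⟩ : F.autGroup T) : F.autGroup T ⧸ N) ∈ H i := by
    intro i k
    constructor
    · rintro ⟨x, hx, rfl⟩
      exact ⟨x.2, hx⟩
    · rintro ⟨hk, hk'⟩
      exact ⟨⟨k, hk⟩, hk', rfl⟩
  have hE' : ∀ i, E.autGroup T ≤ Ks i := by
    intro i k hk
    refine (hmem i k).2 ⟨hEFa hk, ?_⟩
    have : ((⟨k, hEFa hk⟩ : F.autGroup T) : F.autGroup T ⧸ N) = 1 :=
      (QuotientGroup.eq_one_iff _).2 hk
    rw [this]
    exact one_mem _
  have hnormal : ∀ i, ∀ a ∈ F.autGroup T, ∀ k ∈ Ks i, a * k * a⁻¹ ∈ Ks i := by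
    intro i a ha k hk
    obtain ⟨hk1, hk2⟩ := (hmem i k).1 hk
    exact (hmem i _).2 ⟨mul_mem (mul_mem ha hk1) (inv_mem ha),
      (hnorm i).conj_mem _ hk2 ((⟨a, ha⟩ : F.autGroup T) : F.autGroup T ⧸ N)⟩
  have hKlast : Ks (Fin.last n) = F.autGroup T := by
    ext k
    rw [hmem]
    constructor
    · rintro ⟨hk, -⟩
      exact hk
    · intro hk
      exact ⟨hk, by rw [hlast]; exact Subgroup.mem_top _⟩
  have hK0 : Ks 0 = E.autGroup T := by
    refine le_antisymm (fun k hk => ?_) (hE' 0)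
    obtain ⟨hk1, hk2⟩ := (hmem 0 k).1 hk
    rw [h0] at hk2
    have h1 := Subgroup.mem_bot.1 hk2
    have h2 : (⟨k, hk1⟩ : F.autGroup T) ∈ N := (QuotientGroup.eq_one_iff _).1 h1
    exact h2
  have key : ∀ i : Fin (n + 1), ∃ (U : Subgroup Ω) (G : FusionSystem U), Step p E F (Ks i) G := by
    intro i
    induction i using Fin.reverseInduction with
    | last =>
      rw [hKlast]
      exact ⟨S, F, Step.start hS hE⟩
    | cast i ih =>
      obtain ⟨U, G, hG⟩ := ih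
      have hle : Ks i.castSucc ≤ Ks i.succ := by
        intro k hk
        obtain ⟨hk1, hk2⟩ := (hmem _ k).1 hk
        exact (hmem _ k).2 ⟨hk1, hmono (Fin.castSucc_lt_succ).le hk2⟩
      -- powers
      have hpow : ∀ k ∈ Ks i.succ, k ^ (H i.castSucc).relIndex (H i.succ) ∈ Ks i.castSucc := by
        intro k hk
        obtain ⟨hk1, hk2⟩ := (hmem _ k).1 hk
        have hnn : ((H i.castSucc).subgroupOf (H i.succ)).Normal :=
          @Subgroup.normal_subgroupOf _ _ _ _ (hnorm i.castSucc)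
        have h1 := Subgroup.pow_index_mem (H := (H i.castSucc).subgroupOf (H i.succ))
          ⟨_, hk2⟩
        refine (hmem _ _).2 ⟨pow_mem hk1 _, ?_⟩
        exact h1
      rcases hidx i with ⟨m, hm⟩ | hc
      · obtain ⟨U', G', hG'⟩ := hG.ppow hS hle (hnormal _) (hE' _) fun k hk =>
          ⟨m, by rw [← hm]; exact hpow k hk⟩
        exact ⟨U', G', hG'⟩
      · exact ⟨U, _, hG.pprime hS hle (hnormal _) (hE' _) fun k hk n hn =>
          mem_of_pow_mem_of_coprime (hpow k hk) hn (hc.pow_right n)⟩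
  obtain ⟨U, G, hG⟩ := key 0
  rw [hK0] at hG
  have hU : U = T ⊔ centralizerIn S T := by rw [hG.hU, nk_autGroup hE.1.1 hTS hS]
  subst hU
  exact ⟨G, hG⟩

end Step

end Cfsg.Agent.H770
end
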